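import Groth.Agent.Pic13.H967.CurveMeet
import Groth.Agent.Pic13.H945.DegAmple
import Groth.Agent.Ega1.AmpFam
import Groth.Agent.S1518
import Groth.Agent.VarietyA.H0Equiv
import Groth.Agent.VarietyA.TwistExist

/-!
# Negative twists of numerically trivial modules have no sections

`Z` integral proper of dimension `≥ 1` over a field, `H` ample, `N` numerically trivial, `M ⊗ H^m ≅ N` with `m > 0`:
then `H⁰(Z, M) = 0`.
-/

set_option autoImplicit false
universe u
open CategoryTheory CategoryTheory.Limits AlgebraicGeometry Opposite TopologicalSpace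

namespace Groth.Agent.Pic13.H967.NoSec

open Groth.Agent.Grpsch.PicGrp Groth.Agent.Etcore.DegZero Groth.Agent.Fdesc.LocGen
open Groth.Agent.Pic13.H945.DegAmple Groth.Agent.Ega2

/-- A section which generates somewhere on a nonempty open is nonzero. -/
theorem ne_zero_of_mem_genLocus {X : Scheme.{u}} {L : X.Modules} (s : Coh.structureModule X ⟶ L) {x : X}
    (hx : x ∈ CohB1.genLocus L s) : s ≠ 0 := by
  rintro rfl
  have h := isGen_sec_genLocus (X := X) (M := L) 0
  have h1 := h (CohB1.genLocus L 0) le_rfl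
  have : Nonempty (CohB1.genLocus L (0 : Coh.structureModule X ⟶ L) : X.Opens) := ⟨⟨x, hx⟩⟩
  have h2 : (1 : Γ(X, CohB1.genLocus L 0)) = 0 := by
    apply h1.1
    have h3 : sec (0 : Coh.structureModule X ⟶ L) (CohB1.genLocus L 0) = 0 := rfl
    simp only [h3, res_refl, smul_zero]
  exact one_ne_zero h2

variable (k : Type u) [Field k] (Z : Scheme.{u}) [Z.Over (Spec (CommRingCat.of k))]
  [IsProper (Z ↘ Spec (CommRingCat.of k))] [IsIntegral Z]

/-- A nonzero section of `M` forces `deg (M|C) ≥ 0` on some integral curve `C`. -/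
theorem exists_curve_dg_nonneg (hZ : 1 ≤ topologicalKrullDim Z) {M : Z.Modules} (hM : PicF.IsInvertible M)
    (s : Coh.structureModule Z ⟶ M) (hs : s ≠ 0) :
    ∃ (C : Scheme.{u}) (i : C ⟶ Z) (_ : IsClosedImmersion i) (_ : IsIntegral C), topologicalKrullDim C = 1 ∧
      0 ≤ @dg k _ C ⟨i ≫ (Z ↘ Spec (CommRingCat.of k))⟩ (pull i (mk M hM)) := by
  have hη : genericPoint Z ∈ CohB1.genLocus M s :=
    (genericPoint_spec Z).mem_open_set_iff (CohB1.genLocus M s).isOpen |>.mpr
      (by simpa using VarietyA.TwistExist.genLocus_nonempty hM s hs)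
  obtain ⟨C, i, hi, hC, hd, hg⟩ := CurveMeet.exists_curve k (Z ↘ Spec (CommRingCat.of k)) hZ _ hη
  refine ⟨C, i, hi, hC, hd, ?_⟩
  let _ : C.Over (Spec (CommRingCat.of k)) := ⟨i ≫ (Z ↘ Spec (CommRingCat.of k))⟩
  have : IsProper (C ↘ (Spec (CommRingCat.of k))) := inferInstanceAs (IsProper (i ≫ (Z ↘ Spec (CommRingCat.of k))))
  have h1 : genericPoint C ∈ CohB1.genLocus _ (pullHom i s) := by
    rw [Groth.Agent.Ega1.AmpFam.genLocus_pullHom i hM s]
    exact hg
  have h2 := Groth.Agent.S1518.result k C hd _ (isInvertible_pullback i hM) _ (ne_zero_of_mem_genLocus _ h1)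
  rw [pull_mk, dg_eq_deg k C hd (isInvertible_pullback i hM)]
  exact h2

/-- The main statement, for sections. -/
theorem eq_zero (hZ : 1 ≤ topologicalKrullDim Z) (H : Z.Modules) (hH : CohB1.IsAmple H)
    (M N : Z.Modules) (hM : PicF.IsInvertible M) (hN : PicF.IsInvertible N) (hnum : Pic13.IsNumEquivZero k Z N)
    (m : ℕ) (hm : 0 < m) (e : Nonempty (CohB1.tensorMod M (CohB1.tensorPow H m) ≅ N))
    (s : Coh.structureModule Z ⟶ M) : s = 0 := by
  by_contra hs
  obtain ⟨C, i, hi, hC, hd, h0⟩ := exists_curve_dg_nonneg k Z hZ hM s hs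
  let _ : C.Over (Spec (CommRingCat.of k)) := ⟨i ≫ (Z ↘ Spec (CommRingCat.of k))⟩
  have : IsProper (C ↘ (Spec (CommRingCat.of k))) := inferInstanceAs (IsProper (i ≫ (Z ↘ Spec (CommRingCat.of k))))
  have h1 : mk M hM * mk H hH.1 ^ m = mk N hN := by
    rw [← mk_tensorPow, mk_mul_mk]
    exact (mk_eq_iff _ _).mpr e
  have h2 : dg k C (pull i (mk N hN)) = 0 := hnum C i hC hd
  rw [← h1, map_mul, map_pow, dg_mul k C hd, dg_pow k C hd] at h2
  have h3 : 0 < dg k C (pull i (mk H hH.1)) :=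
    (isAmple_iff_dg_pos k C hd (isInvertible_pullback i hH.1)).mp (CohqB.AmpCocycle.isAmple_pullback i hH)
  have h4 : 0 < (m : ℤ) * dg k C (pull i (mk H hH.1)) := mul_pos (by exact_mod_cast hm) h3
  linarith

/-- `H⁰(Z, M) = 0` for a negative twist `M` of a numerically trivial module. -/
theorem subsingleton (hZ : 1 ≤ topologicalKrullDim Z) (H : Z.Modules) (hH : CohB1.IsAmple H)
    (M N : Z.Modules) (hM : PicF.IsInvertible M) (hN : PicF.IsInvertible N) (hnum : Pic13.IsNumEquivZero k Z N)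
    (m : ℕ) (hm : 0 < m) (e : Nonempty (CohB1.tensorMod M (CohB1.tensorPow H m) ≅ N)) :
    Subsingleton (Coh.HH Z M 0) := by
  have key : ∀ t : Γ(M, ⊤), t = 0 := by
    intro t
    have h1 := eq_zero k Z hZ H hH M N hM hN hnum m hm e (homOf t)
    have h2 : sec (homOf t) ⊤ = t := by rw [sec_homOf, res_refl]
    rw [← h2, h1]
    rfl
  refine ⟨fun a b => (VarietyA.H0Equiv.hZeroEquiv M).injective ?_⟩
  exact (key _).trans (key _).symm

end Groth.Agent.Pic13.H967.NoSec
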